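import Cfsg.Agent.J3C.InvQ
import Cfsg.Agent.J3C.InvP
import Cfsg.Agent.Inv.A5P

set_option autoImplicit false
set_option Elab.async false
set_option maxRecDepth 100000
set_option linter.all false

namespace Cfsg.Agent.J3C
open Cfsg.Agent.CGT

open Cfsg.Agent.Inv

theorem q_struct {G : Type*} [Group G] {φ : G →* Equiv.Perm ℕ} {δ : ℕ → G}
    (C2 : Cert φ δ 13 y_ns y_ts [0, 2, 4] cc_ls) (h2 : ev (ext δ) [2] ∈ Subgroup.center G)
    (h3 : orderOf (ev (ext δ) [2]) = 2) : ∃ (Q : Subgroup G) (_ : Q.Normal), Cfsg.IsExtraspecial 2 Q ∧ Nat.card Q = 32 ∧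
      (∀ E : Subgroup Q, Cfsg.IsElementaryAbelian 2 E → Nat.card E ≤ 2 ^ 2) ∧ (∃ H : Subgroup G, Q.IsComplement' H) ∧
        Nonempty (G ⧸ Q ≃* alternatingGroup (Fin 5)) := by
  obtain ⟨ψ, CK⟩ := a5_cert
  obtain ⟨f, hf, hf'⟩ := exists_surj C2 CK (R := qRR) (W := [[4, 3, 0], [], [3, 4, 3, 0]]) (U := [[0, 0, 4, 1, 1, 4], [0, 4], [0, 4, 1, 1, 4, 0]]) (fun h => qbd0 h) (by decide +kernel)
  have := C2.fin
  obtain ⟨h4, h5⟩ := ker_eq_gp hf hf' (W := z_W) (relsD_sound CK.M CK.base (by decide +kernel)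
    (fun _ _ => trivial) (by decide +kernel)) (zc_sound (z_model C2)) a5_card (n := 32)
    (C2.card.trans (by decide +kernel)) (by decide +kernel)
  refine ⟨f.ker, inferInstance, h4 ▸ z_extra C2 h2 h3 h5, h4 ▸ h5, h4 ▸ z_rank C2, ⟨_, compl_of_list CK hf' (U := [[0, 0, 4, 2, 0, 0, 4, 1, 4, 1], [2, 1, 1, 4, 0, 4, 0, 0, 4, 0], [4, 0, 0, 4, 1, 4, 0, 0, 4]])
    (by decide +kernel) (L := [0, 2, 4]) (by decide +kernel) ((a5pbd0 (relsD_sound C2.M C2.base (by decide +kernel)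
      (fun _ _ => trivial) (by decide +kernel))).2.trans (by decide +kernel))⟩,
    ⟨QuotientGroup.quotientKerEquivOfSurjective f hf⟩⟩

end Cfsg.Agent.J3C
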