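import Cfsg.Agent.J3C.InvQD

set_option autoImplicit false
set_option Elab.async false
set_option maxRecDepth 100000
set_option linter.all false

namespace Cfsg.Agent.J3C
open Cfsg.Agent.CGT

open Cfsg.Agent.Inv

theorem z_e0 : extJ 13 y_ns z_ns z_W 0 = true := by decide +kernel
theorem z_e1 : extJ 13 y_ns z_ns z_W 1 = true := by decide +kernel
theorem z_e2 : extJ 13 y_ns z_ns z_W 2 = true := by decide +kernel
theorem z_e3 : extJ 13 y_ns z_ns z_W 3 = true := by decide +kernel
theorem z_e4 : extJ 13 y_ns z_ns z_W 4 = true := by decide +kernel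
theorem z_cl : closB 13 z_ts (chainBase [] cc_ls) [0, 2, 4, 6, 8] z_E z_P = true := by decide +kernel

end Cfsg.Agent.J3C
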