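import Cfsg.Agent.J3C.InvQD

set_option autoImplicit false
set_option Elab.async false
set_option maxRecDepth 100000
set_option linter.all false

namespace Cfsg.Agent.J3C
open Cfsg.Agent.CGT

open Cfsg.Agent.Inv

theorem zc_l0_ok : zc_l0.okT 13 z_ts [0, 2, 4, 6, 8] [] (.cons [0] (.cons [2] .nil (.cons [4] (.cons [2] .nil (.cons [6] .nil .nil)) (.cons [6] (.cons [2] (.cons [4] .nil .nil) (.cons [4] (.cons [2] .nil .nil) .nil)) .nil))) (.cons [2] (.cons [0] .nil (.cons [4] (.cons [0] .nil (.cons [6] .nil .nil)) (.cons [6] .nil .nil))) (.cons [4] (.cons [0] .nil (.cons [2] (.cons [6] .nil .nil) (.cons [6] .nil .nil))) (.cons [6] (.cons [0] (.cons [2] .nil .nil) (.cons [2] .nil (.cons [4] .nil .nil))) (.cons [8] (.cons [0] .nil (.cons [2] .nil (.cons [4] .nil (.cons [6] .nil .nil)))) .nil))))) = true := by decide +kernel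
theorem z_ex : extraB 13 z_ts (chainBase [] cc_ls) [0, 2, 4, 6, 8] [8] z_E = true := by decide +kernel
theorem z_rk : rankB 13 z_ts (chainBase [] cc_ls) [8] z_E = true := by decide +kernel

end Cfsg.Agent.J3C
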