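import Cfsg.Agent.J3C.InvXD

set_option autoImplicit false
set_option Elab.async false
set_option maxRecDepth 100000
set_option linter.all false

namespace Cfsg.Agent.J3C
open Cfsg.Agent.CGT

open Cfsg.Agent.Inv

theorem x_t7_b : Tab.beq (mkTab 13 6 x_ns 7) x_t7 = true := by decide +kernel
theorem x_t8_b : Tab.beq (mkTab 13 6 x_ns 8) x_t8 = true := by decide +kernel
theorem x_t10_b : Tab.beq (mkTab 13 6 x_ns 10) x_t10 = true := by decide +kernel
theorem x_t12_b : Tab.beq (mkTab 13 6 x_ns 12) x_t12 = true := by decide +kernel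
theorem x_t13_b : Tab.beq (mkTab 13 6 x_ns 13) x_t13 = true := by decide +kernel
theorem x_t14_b : Tab.beq (mkTab 13 6 x_ns 14) x_t14 = true := by decide +kernel

end Cfsg.Agent.J3C
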