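import Cfsg.Agent.J3C.InvXD

set_option autoImplicit false
set_option Elab.async false
set_option maxRecDepth 100000
set_option linter.all false

namespace Cfsg.Agent.J3C
open Cfsg.Agent.CGT

open Cfsg.Agent.Inv

theorem x_e6 : extJ 13 l0_ns x_ns x_W 6 = true := by decide +kernel
theorem x_e7 : extJ 13 l0_ns x_ns x_W 7 = true := by decide +kernel
theorem c2_l0_ok : (ptsOK 13 [] && (wordsIn [0, 2, 4, 6, 8, 10, 12, 14] c2_l0.S && c2_l0.ok 13 x_ns x_ts [])) = true := by decide +kernel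
theorem c2_l1_ok : (ptsOK 13 [0] && (wordsIn [0, 2, 4, 6, 8, 10, 12, 14] c2_l1.S && c2_l1.ok 13 x_ns x_ts [0])) = true := by decide +kernel
theorem c2_l2_ok : c2_l2.okT 13 x_ts [0, 2, 4, 6, 8, 10, 12, 14] [405, 0] (.cons [0] .nil .nil) = true := by decide +kernel
theorem c2_l3_ok : (ptsOK 13 [6, 405, 0] && (wordsIn [0, 2, 4, 6, 8, 10, 12, 14] c2_l3.S && c2_l3.ok 13 x_ns x_ts [6, 405, 0])) = true := by decide +kernel

end Cfsg.Agent.J3C
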